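import Mathlib

/-!
# The number of Sylow `p`-subgroups of the centralizer of an element of order `p` is even (helper642, for S4844)

`even_card`: Sylow `p`-subgroups of order `p ^ 2`, centralized by no involution, `2 ^ k ∤ p (p - 1)`, `2 ^ k ∣ |C(s)|`.
-/

set_option autoImplicit false

namespace Cfsg.Agent.H642.EvenSyl

open Subgroup

variable {G : Type*} [Group G]

/-- conjugation action -/
theorem card_dvd_conj [Finite G] (T : Subgroup G) (Y : Set G) (hinv : ∀ t ∈ T, ∀ y ∈ Y, t * y * t⁻¹ ∈ Y)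
    (hfree : ∀ t ∈ T, ∀ y ∈ Y, t * y * t⁻¹ = y → t = 1) : Nat.card T ∣ Nat.card Y := by
  classical
  let A : MulAction T Y :=
    { smul := fun t y => ⟨(t : G) * (y : G) * (t : G)⁻¹, hinv t t.2 y y.2⟩
      one_smul := fun y => Subtype.ext (by
        show ((1 : T) : G) * (y : G) * ((1 : T) : G)⁻¹ = y
        simp)
      mul_smul := fun a b y => Subtype.ext (by
        show ((a * b : T) : G) * (y : G) * ((a * b : T) : G)⁻¹ = (a : G) * ((b : G) * y * (b : G)⁻¹) * (a : G)⁻¹
        simp only [Subgroup.coe_mul]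
        group) }
  have hst : ∀ y : Y, Nat.card (MulAction.stabilizer T y) = 1 := by
    intro y
    have h1 : MulAction.stabilizer T y = ⊥ := by
      rw [eq_bot_iff]
      intro t ht
      rw [Subgroup.mem_bot]
      have h2 : t • y = y := MulAction.mem_stabilizer_iff.1 ht
      have h3 := congrArg Subtype.val h2
      exact Subtype.ext (hfree t t.2 y y.2 h3)
    rw [h1, Subgroup.card_bot]
  have e := MulAction.selfEquivSigmaOrbits T Y
  rw [Nat.card_congr e]
  have : Fintype (MulAction.orbitRel.Quotient T Y) := Fintype.ofFinite _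
  rw [Nat.card_sigma]
  refine Finset.dvd_sum fun ω _ => ?_
  have h4 : Nat.card (MulAction.orbit T (Quotient.out ω)) * Nat.card (MulAction.stabilizer T (Quotient.out ω)) =
      Nat.card T := by
    rw [← Nat.card_prod]
    exact Nat.card_congr (MulAction.orbitProdStabilizerEquivGroup T (Quotient.out ω))
  rw [hst, mul_one] at h4
  rw [h4]

/-- two commuting involutions of a subgroup -/
theorem four_dvd [Finite G] {K : Subgroup G} {a b : G} (ha : a * a = 1) (hb : b * b = 1) (hab : a * b = b * a)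
    (ha1 : a ≠ 1) (hb1 : b ≠ 1) (hne : a ≠ b) (haK : a ∈ K) (hbK : b ∈ K) : 4 ∣ Nat.card K := by
  have hc : Commute a b := hab
  let V : Subgroup G :=
    { carrier := {x | ∃ i j : ℕ, x = a ^ i * b ^ j}
      one_mem' := ⟨0, 0, by simp⟩
      mul_mem' := by
        rintro _ _ ⟨i, j, rfl⟩ ⟨k, l, rfl⟩
        refine ⟨i + k, j + l, ?_⟩
        rw [pow_add, pow_add, mul_assoc, ← mul_assoc (b ^ j), ((hc.symm.pow_pow j k)).eq]
        group
      inv_mem' := by
        rintro _ ⟨i, j, rfl⟩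
        refine ⟨i, j, ?_⟩
        have h1 : a⁻¹ = a := inv_eq_of_mul_eq_one_left ha
        have h2 : b⁻¹ = b := inv_eq_of_mul_eq_one_left hb
        rw [mul_inv_rev, ← inv_pow, ← inv_pow, h1, h2, (hc.symm.pow_pow j i).eq] }
  have hV : V ≤ K := by
    rintro _ ⟨i, j, rfl⟩
    exact mul_mem (pow_mem haK i) (pow_mem hbK j)
  have hsq : ∀ x : V, x ^ 2 = 1 := by
    rintro ⟨_, i, j, rfl⟩
    apply Subtype.ext
    show (a ^ i * b ^ j) ^ 2 = 1
    rw [(hc.pow_pow i j).mul_pow, ← pow_mul, ← pow_mul, mul_comm i, mul_comm j, pow_mul, pow_mul, pow_two, pow_two,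
      ha, hb, one_pow, one_pow, one_mul]
  have hp : IsPGroup 2 V := fun x => ⟨1, by rw [pow_one]; exact hsq x⟩
  have : Fact (Nat.Prime 2) := ⟨Nat.prime_two⟩
  obtain ⟨n, hn⟩ := IsPGroup.iff_card.1 hp
  have h3 : 3 ≤ Nat.card V := by
    have h4 : ({1, a, b} : Set G) ⊆ (V : Set G) := by
      rintro x (rfl | rfl | rfl)
      · exact V.one_mem
      · exact ⟨1, 0, by simp⟩
      · exact ⟨0, 1, by simp⟩
    have h5 : ({1, a, b} : Set G).ncard = 3 := by
      rw [Set.ncard_eq_three]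
      exact ⟨1, a, b, ha1.symm, hb1.symm, hne, rfl⟩
    rw [← h5]
    exact Set.ncard_le_ncard h4 (Set.toFinite _)
  have h4 : 2 ≤ n := by
    by_contra h
    have h5 : 2 ^ n ≤ 2 ^ 1 := Nat.pow_le_pow_right (by norm_num) (by omega)
    omega
  have h5 : 4 ∣ Nat.card V := by
    rw [hn]
    exact pow_dvd_pow 2 h4
  exact h5.trans (Subgroup.card_dvd_of_le hV)

/-- **Even number of Sylow subgroups.** -/
theorem even_card [Finite G] {p k : ℕ} [hp : Fact p.Prime] {s : G} (hs : orderOf s = p)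
    (hG : p ^ 2 ∣ Nat.card G) (hG' : ¬ p ^ 3 ∣ Nat.card G) (hk : ¬ 2 ^ k ∣ p * (p - 1))
    (h4 : 2 ^ k ∣ Nat.card (centralizer ({s} : Set G)))
    (hodd : ∀ (P : Sylow p G) (t : G), orderOf t = 2 → (∀ x ∈ (P : Subgroup G), t * x = x * t) → False) :
    Even (Nat.card (Sylow p (centralizer ({s} : Set G)))) := by
  classical
  have hp0 : 0 < p := hp.out.pos
  by_contra hno
  rw [Nat.not_even_iff_odd] at hno
  -- Sylow subgroups of `G`
  have hcP : ∀ P : Sylow p G, Nat.card (P : Subgroup G) = p ^ 2 := by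
    intro P
    obtain ⟨n, hn⟩ := IsPGroup.iff_card.1 P.isPGroup'
    have h1 : Nat.card (P : Subgroup G) * (P : Subgroup G).index = Nat.card G := Subgroup.card_mul_index _
    have h2 : ¬ p ∣ (P : Subgroup G).index := P.not_dvd_index
    have h3 : n = 2 := by
      have h5 : n < 3 := by
        by_contra h6
        have h8 := Subgroup.card_subgroup_dvd_card (P : Subgroup G)
        rw [hn] at h8
        exact hG' ((pow_dvd_pow p (not_lt.1 h6)).trans h8)
      have h6 : p ^ 2 ∣ p ^ n := by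
        rw [← h1, hn] at hG
        exact (Nat.Coprime.pow_left 2 ((Nat.Prime.coprime_iff_not_dvd hp.out).2 h2)).dvd_of_dvd_mul_right hG
      have h7 := (Nat.pow_dvd_pow_iff_le_right hp.out.one_lt).1 h6
      omega
    rw [hn, h3]
  have hcomm : ∀ P : Sylow p G, ∀ a ∈ (P : Subgroup G), ∀ b ∈ (P : Subgroup G), a * b = b * a := by
    intro P a ha b hb
    have h1 : IsMulCommutative (P : Subgroup G) := IsPGroup.isMulCommutative_of_card_eq_prime_sq (hcP P)
    exact congrArg Subtype.val (h1.is_comm.comm ⟨a, ha⟩ ⟨b, hb⟩)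
  set C : Subgroup G := centralizer ({s} : Set G) with hC
  have hsC : s ∈ C := mem_centralizer_singleton_iff.2 rfl
  have hcen : ∀ c : C, (⟨s, hsC⟩ : C) * c = c * ⟨s, hsC⟩ := fun c =>
    Subtype.ext (mem_centralizer_singleton_iff.1 c.2).symm
  -- `C` contains a Sylow subgroup of `G`
  obtain ⟨P₀, hP₀⟩ : ∃ P : Sylow p G, s ∈ (P : Subgroup G) := by
    have h1 : IsPGroup p (zpowers s) := IsPGroup.of_card (n := 1) (by rw [Nat.card_zpowers, hs, pow_one])
    obtain ⟨P, hP⟩ := h1.exists_le_sylow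
    exact ⟨P, hP (mem_zpowers s)⟩
  have hPC : (P₀ : Subgroup G) ≤ C := fun a ha => mem_centralizer_singleton_iff.2 (hcomm P₀ a ha s hP₀)
  have hpC : p ^ 2 ∣ Nat.card C := by
    rw [← hcP P₀]
    exact Subgroup.card_dvd_of_le hPC
  let Q : Sylow p C := default
  have hQ : Nat.card (Q : Subgroup C) = p ^ 2 := by
    obtain ⟨n, hn⟩ := IsPGroup.iff_card.1 Q.isPGroup'
    have h1 : Nat.card (Q : Subgroup C) * (Q : Subgroup C).index = Nat.card C := Subgroup.card_mul_index _
    have h2 : ¬ p ∣ (Q : Subgroup C).index := Q.not_dvd_index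
    have h5 : n < 3 := by
      by_contra h6
      have h8 := (Subgroup.card_subgroup_dvd_card (Q : Subgroup C)).trans (Subgroup.card_subgroup_dvd_card C)
      rw [hn] at h8
      exact hG' ((pow_dvd_pow p (not_lt.1 h6)).trans h8)
    have h6 : p ^ 2 ∣ p ^ n := by
      rw [← h1, hn] at hpC
      exact (Nat.Coprime.pow_left 2 ((Nat.Prime.coprime_iff_not_dvd hp.out).2 h2)).dvd_of_dvd_mul_right hpC
    have h7 := (Nat.pow_dvd_pow_iff_le_right hp.out.one_lt).1 h6
    rw [hn, show n = 2 by omega]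
  -- `s ∈ Q`
  have hsQ : (⟨s, hsC⟩ : C) ∈ (Q : Subgroup C) := by
    have h1 : IsPGroup p (zpowers (⟨s, hsC⟩ : C)) := IsPGroup.of_card (n := 1) (by
      rw [Nat.card_zpowers, pow_one, ← hs]
      exact Subgroup.orderOf_mk s hsC)
    obtain ⟨P, hP⟩ := h1.exists_le_sylow
    obtain ⟨g, hg⟩ := MulAction.exists_smul_eq C P Q
    have h2 : g * (⟨s, hsC⟩ : C) * g⁻¹ ∈ (Q : Subgroup C) := by
      rw [← hg, Sylow.coe_subgroup_smul]
      exact smul_mem_pointwise_smul _ (MulAut.conj g) _ (hP (mem_zpowers _))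
    rwa [← hcen g, mul_assoc, mul_inv_cancel, mul_one] at h2
  -- the 2-group
  have hN : 2 ^ k ∣ Nat.card (normalizer ((Q : Subgroup C) : Set C)) := by
    have h1 := Subgroup.card_mul_index (normalizer ((Q : Subgroup C) : Set C))
    have h1' : Nat.card (Sylow p C) = (normalizer ((Q : Subgroup C) : Set C)).index := Sylow.card_eq_index_normalizer Q
    rw [← h1'] at h1
    rw [← h1] at h4
    exact (Nat.Coprime.pow_left k ((Nat.coprime_two_left).2 hno)).dvd_of_dvd_mul_right h4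
  have h2f : Fact (Nat.Prime 2) := ⟨Nat.prime_two⟩
  obtain ⟨T₀, hT₀⟩ := Sylow.exists_subgroup_card_pow_prime 2 hN
  let T : Subgroup C := T₀.map (normalizer ((Q : Subgroup C) : Set C)).subtype
  have hT : Nat.card T = 2 ^ k := by
    rw [← hT₀]
    exact (Nat.card_congr (T₀.equivMapOfInjective _ (Subgroup.subtype_injective _)).toEquiv).symm
  have hTN : ∀ t ∈ T, ∀ y ∈ (Q : Subgroup C), t * y * t⁻¹ ∈ (Q : Subgroup C) := by
    rintro _ ⟨t, -, rfl⟩ y hy
    exact (mem_normalizer_iff.1 t.2 y).1 hy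
  -- the action on `Q - ⟨s⟩`
  let Y : Set C := {y | y ∈ (Q : Subgroup C) ∧ y ∉ zpowers (⟨s, hsC⟩ : C)}
  have hY : Nat.card Y = p * (p - 1) := by
    have h1 : Y = ((Q : Subgroup C) : Set C) \ (zpowers (⟨s, hsC⟩ : C) : Set C) := rfl
    have h2 : (zpowers (⟨s, hsC⟩ : C) : Set C) ⊆ ((Q : Subgroup C) : Set C) := by
      intro y hy
      exact (zpowers_le.2 hsQ) hy
    rw [h1, Nat.card_coe_set_eq, Set.ncard_sdiff h2]
    have h3 : ((Q : Subgroup C) : Set C).ncard = p ^ 2 := by rw [← hQ]; rfl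
    have h4 : (zpowers (⟨s, hsC⟩ : C) : Set C).ncard = p := by
      have : Nat.card (zpowers (⟨s, hsC⟩ : C)) = p := by
        rw [Nat.card_zpowers, ← hs]
        exact Subgroup.orderOf_mk s hsC
      rw [← this]; rfl
    rw [h3, h4, pow_two, Nat.mul_sub, mul_one]
  obtain ⟨t, ht, y, hy, hty, ht1⟩ : ∃ t ∈ T, ∃ y ∈ Y, t * y * t⁻¹ = y ∧ t ≠ 1 := by
    by_contra hcon
    push Not at hcon
    refine hk ?_
    rw [← hT, ← hY]
    refine card_dvd_conj T Y (fun t ht y hy => ⟨hTN t ht y hy.1, fun h => hy.2 ?_⟩) fun t ht y hy h => hcon t ht y hy h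
    obtain ⟨j, hj⟩ := h
    have h1 : t⁻¹ * (t * y * t⁻¹) * t = y := by group
    have hj' : (⟨s, hsC⟩ : C) ^ j = t * y * t⁻¹ := hj
    rw [← h1, ← hj']
    have h2 : Commute t⁻¹ ((⟨s, hsC⟩ : C) ^ j) := (show Commute t⁻¹ (⟨s, hsC⟩ : C) from (hcen t⁻¹).symm).zpow_right j
    rw [h2.eq, mul_assoc, inv_mul_cancel, mul_one]
    exact ⟨j, rfl⟩
  -- `t` centralizes `Q`
  have htQ : ∀ q ∈ (Q : Subgroup C), t * q = q * t := by
    let K : Subgroup (Q : Subgroup C) := (centralizer ({t} : Set C)).subgroupOf (Q : Subgroup C)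
    have h1 : Nat.card K ∣ p ^ 2 := hQ ▸ Subgroup.card_subgroup_dvd_card K
    have hmem : ∀ q : (Q : Subgroup C), q ∈ K ↔ (q : C) * t = t * q := by
      intro q
      rw [mem_subgroupOf, mem_centralizer_singleton_iff]
    have hsK : (⟨⟨s, hsC⟩, hsQ⟩ : (Q : Subgroup C)) ∈ K := (hmem _).2 (hcen t)
    have hyK : (⟨y, hy.1⟩ : (Q : Subgroup C)) ∈ K := (hmem _).2 (by
      have : t * y = y * t := mul_inv_eq_iff_eq_mul.1 hty
      exact this.symm)
    obtain ⟨m, hm2, hm⟩ := (Nat.dvd_prime_pow hp.out).1 h1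
    have hKtop : K = ⊤ := by
      apply Subgroup.eq_top_of_card_eq
      rw [hm, hQ]
      rcases Nat.lt_or_ge m 2 with h | h
      · exfalso
        have h3 : zpowers (⟨⟨s, hsC⟩, hsQ⟩ : (Q : Subgroup C)) = K := by
          apply Subgroup.eq_of_le_of_card_ge (zpowers_le.2 hsK)
          rw [hm, Nat.card_zpowers, Subgroup.orderOf_mk, Subgroup.orderOf_mk, hs]
          calc p ^ m ≤ p ^ 1 := Nat.pow_le_pow_right hp0 (by omega)
            _ = p := pow_one p
        rw [← h3] at hyK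
        obtain ⟨j, hj⟩ := hyK
        exact hy.2 ⟨j, by
          have := congrArg Subtype.val hj
          simpa using this⟩
      · rw [show m = 2 by omega]
    intro q hq
    have := (hmem ⟨q, hq⟩).1 (hKtop ▸ mem_top _)
    exact this.symm
  -- an involution
  obtain ⟨j, hj⟩ : ∃ j : ℕ, orderOf (t ^ j) = 2 := by
    have h1 : orderOf t ∣ 2 ^ k := by
      rw [← hT]
      exact Subgroup.orderOf_dvd_natCard T ht
    obtain ⟨m, -, hm⟩ := (Nat.dvd_prime_pow Nat.prime_two).1 h1
    rcases m with _ | m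
    · exact absurd (orderOf_eq_one_iff.1 (by rw [hm, pow_zero])) ht1
    · exact ⟨2 ^ m, by
        rw [orderOf_pow' t (by positivity), hm, Nat.gcd_eq_right (pow_dvd_pow 2 (Nat.le_succ m)), pow_succ]
        exact Nat.mul_div_cancel_left 2 (by positivity)⟩
  -- contradiction
  let P : Subgroup G := (Q : Subgroup C).map C.subtype
  have hPc : Nat.card P = p ^ 2 := by
    rw [← hQ]
    exact (Nat.card_congr ((Q : Subgroup C).equivMapOfInjective _ (Subgroup.subtype_injective _)).toEquiv).symm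
  have hPp : IsPGroup p P := IsPGroup.of_card hPc
  obtain ⟨P₁, hP₁⟩ := hPp.exists_le_sylow
  have hPe : P = (P₁ : Subgroup G) := Subgroup.eq_of_le_of_card_ge hP₁ (by rw [hcP P₁, hPc])
  refine hodd P₁ ((t ^ j : C) : G) (by rw [Subgroup.orderOf_coe, hj]) fun x hx => ?_
  rw [← hPe] at hx
  obtain ⟨q, hq, rfl⟩ := hx
  have h1 : Commute (t ^ j) q := (show Commute t q from htQ q hq).pow_left j
  exact congrArg Subtype.val h1.eq

end Cfsg.Agent.H642.EvenSyl
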