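import Cfsg.Agent.H710.PSq.Syl

/-!
# Groups of permutations of nine letters: the number of Sylow 5-subgroups is even (helper642)
-/

set_option autoImplicit false
set_option maxRecDepth 100000

namespace Cfsg.Agent.H642.NineFive

open Subgroup Equiv

/-- addition (exclusive or) on `0, …, 7`, fixing `8` -/
def tf (k : Fin 8) (i : Fin 9) : Fin 9 := if h : (i : ℕ) < 8 then ⟨(k : ℕ) ^^^ (i : ℕ), by
  have h1 : (k : ℕ) ^^^ (i : ℕ) < 2 ^ 3 := Nat.xor_lt_two_pow (by omega) (by omega)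
  omega⟩ else i

theorem tf_tf : ∀ (k : Fin 8) (i : Fin 9), tf k (tf k i) = i := by decide +kernel

/-- the eight translations -/
def t (k : Fin 8) : Perm (Fin 9) where
  toFun := tf k
  invFun := tf k
  left_inv := tf_tf k
  right_inv := tf_tf k

theorem t_mul : ∀ k l : Fin 8, ∃ m : Fin 8, t k * t l = t m := by decide +kernel

theorem t_sq : ∀ k : Fin 8, t k * t k = 1 := by decide +kernel

theorem t_trans : ∀ i j : Fin 9, i ≠ 8 → j ≠ 8 → ∃ k : Fin 8, t k i = j := by decide +kernel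

theorem t_sign : ∀ k : Fin 8, t k ∈ alternatingGroup (Fin 9) := by
  intro k
  rw [Equiv.Perm.mem_alternatingGroup]
  revert k
  decide +kernel

theorem t_zero : t 0 = 1 := by decide +kernel

/-- the group of the translations -/
def T : Subgroup (Perm (Fin 9)) where
  carrier := Set.range t
  one_mem' := ⟨0, t_zero⟩
  mul_mem' := by
    rintro _ _ ⟨k, rfl⟩ ⟨l, rfl⟩
    obtain ⟨m, hm⟩ := t_mul k l
    exact ⟨m, hm.symm⟩
  inv_mem' := by
    rintro _ ⟨k, rfl⟩
    exact ⟨k, (inv_eq_of_mul_eq_one_left (t_sq k)).symm⟩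

theorem isPGroup_T : IsPGroup 2 T := by
  rintro ⟨_, k, rfl⟩
  refine ⟨1, Subtype.ext ?_⟩
  show t k ^ 2 ^ 1 = 1
  rw [pow_one, pow_two, t_sq]

instance instFact5 : Fact (Nat.Prime 5) := ⟨by norm_num⟩

/-- a subgroup of `S₉` containing the translations, of order divisible by 5 -/
theorem even_sylow (H : Subgroup (Perm (Fin 9))) (hT : T ≤ H) (h5 : 5 ∣ Nat.card H) :
    Even (Nat.card (Sylow 5 H)) := by
  classical
  have hT2 : IsPGroup 2 (T.subgroupOf H) := isPGroup_T.comap_subtype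
  refine H710.PSq.even_of_noFixed (T.subgroupOf H) hT2 fun Q => ?_
  by_contra hno
  push Not at hno
  have h1 := Q.isPGroup'.card_modEq_card_fixedPoints (Fin 9)
  set F := MulAction.fixedPoints Q (Fin 9) with hF
  have hmem : ∀ i, i ∈ F ↔ ∀ q : H, q ∈ (Q : Subgroup H) → (q : Perm (Fin 9)) i = i := by
    intro i
    rw [hF, MulAction.mem_fixedPoints]
    exact ⟨fun h q hq => h ⟨q, hq⟩, fun h q => h q q.2⟩
  -- the translations permute `F`
  have hinv : ∀ (k : Fin 8) (i : Fin 9), i ∈ F → t k i ∈ F := by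
    intro k i hi
    rw [hmem] at hi ⊢
    intro q hq
    have hk : t k ∈ H := hT ⟨k, rfl⟩
    have h2 : (⟨t k, hk⟩ : H) ∈ normalizer ((Q : Subgroup H) : Set H) :=
      Sylow.smul_eq_iff_mem_normalizer.1 (hno _ (mem_subgroupOf.2 ⟨k, rfl⟩))
    have h3 : (⟨t k, hk⟩ : H)⁻¹ * q * ⟨t k, hk⟩ ∈ (Q : Subgroup H) := (mem_normalizer_iff''.1 h2 q).1 hq
    have h4 := hi _ h3
    have h5 : ((t k)⁻¹ * (q : Perm (Fin 9)) * t k) i = i := h4
    rw [Perm.mul_apply, Perm.mul_apply, Perm.inv_eq_iff_eq] at h5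
    exact h5
  have h9 : Nat.card (Fin 9) = 9 := by simp
  rw [h9] at h1
  -- a fixed point different from 8
  have h6 : ∃ i ∈ F, i ≠ 8 := by
    by_contra hc
    push Not at hc
    have h7 : Nat.card F ≤ 1 := by
      rw [Nat.card_coe_set_eq]
      calc F.ncard ≤ ({8} : Set (Fin 9)).ncard := Set.ncard_le_ncard (fun i hi => hc i hi) (Set.toFinite _)
        _ = 1 := Set.ncard_singleton _
    have h8 : Nat.card F = 0 ∨ Nat.card F = 1 := by omega
    rcases h8 with h8 | h8 <;> rw [h8] at h1 <;> revert h1 <;> decide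
  obtain ⟨i, hi, hi8⟩ := h6
  have h7 : ∀ j : Fin 9, j ≠ 8 → j ∈ F := by
    intro j hj
    obtain ⟨k, rfl⟩ := t_trans i j hi8 hj
    exact hinv k i hi
  -- `Q` is trivial
  have h8 : (Q : Subgroup H) = ⊥ := by
    rw [eq_bot_iff]
    intro q hq
    have h10 : ∀ j : Fin 9, j ≠ 8 → (q : Perm (Fin 9)) j = j := fun j hj => (hmem j).1 (h7 j hj) q hq
    rw [mem_bot]
    apply Subtype.ext
    ext j
    by_cases hj : j = 8
    · have h11 : (q : Perm (Fin 9)) 8 = 8 := by
        by_contra h12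
        exact h12 ((q : Perm (Fin 9)).injective (h10 _ h12))
      rw [hj, h11]
      rfl
    · rw [h10 j hj]
      rfl
  have h10 : 5 ^ 1 ∣ Nat.card (Q : Subgroup H) := Q.pow_dvd_card_of_pow_dvd_card (by rwa [pow_one])
  rw [h8, card_bot] at h10
  norm_num at h10

end Cfsg.Agent.H642.NineFive
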