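import Cfsg.Agent.H895.Pron.SuzX5
import Cfsg.Agent.H874.Tor.SuzFive
import Cfsg.Agent.H710.PSq.Syl2
import Cfsg.Agent.H642.EvenSyl

/-!
# S4844, row `Suz`, `p = 5` (helper642)

The centralizer of an element `v` of order 5 of `Suz` has an even number of Sylow 5-subgroups: `v` commutes with an
involution; if it is of type `2A`, then `8 ∣ |C(v)|`; if it is of type `2B`, then a four-group commutes with `v`.
No involution commutes with a subgroup of order 25.
-/

set_option autoImplicit false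
set_option maxRecDepth 100000

namespace Cfsg.Agent.H642.SuzFive

open Subgroup Cfsg Cfsg.Spor Cfsg.Agent.BpSpor Cfsg.Agent.BpSpor.SuzFive
open Cfsg.Agent.SuzThree.Basic Cfsg.Agent.SuzThree.CentA Cfsg.Agent.SuzThree.QZero Cfsg.Agent.KFacts.SuzR
  Cfsg.Agent.KFacts.Codes Cfsg.Agent.KFacts.SuzLFour Cfsg.Agent.KFacts.SuzTwoB

universe u

instance instFact5 : Fact (Nat.Prime 5) := ⟨by norm_num⟩

theorem ord_conj {G : Type*} [Group G] (c v : G) : orderOf (c * v * c⁻¹) = orderOf v :=
  orderOf_injective (MulAut.conj c).toMonoidHom (MulAut.conj c).injective v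

/-- no involution commutes with a subgroup of order 25 -/
theorem not_cent {u : Suz} (hu : u ^ 2 = 1) (hu1 : u ≠ 1) : ¬ 5 ^ 2 ∣ Nat.card (centralizer ({u} : Set Suz)) :=
  H503.TwoSuz.not_dvd_two (p := 5 ^ 2) (by norm_num) (by norm_num) (orderOf_eq_prime hu hu1)

theorem card_fact : (Nat.card Suz).factorization 5 = 2 := by
  rw [SporadicRecognition.SuzOrder.card_Suz, show (448345497600 : ℕ) = 5 ^ 2 * 17933819904 by norm_num,
    Nat.factorization_mul (by norm_num) (by norm_num), Finsupp.add_apply,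
    Nat.Prime.factorization_pow (by norm_num), Finsupp.single_eq_same,
    Nat.factorization_eq_zero_of_not_dvd (by norm_num)]

theorem even_z0 {v : Suz} (hv : orderOf v = 5) (hz : v * z0 = z0 * v) :
    Even (Nat.card (Sylow 5 (centralizer ({v} : Set Suz)))) := by
  have hfin := CTwoTab.Suz.finSuz
  have h8 : 2 ^ 3 ∣ Nat.card (centralizer ({v} : Set Suz)) := by
    have h1 := card_A KFacts.SuzLarge.large (card_R : Nat.card ↥Q0 = 2 ^ 7) hv hz
    have h2 : 2 ^ 3 = Nat.card ↥(Q0 ⊓ centralizer ({v} : Set Suz)) := by rw [h1]; norm_num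
    rw [h2]
    exact card_dvd_of_le inf_le_right
  have h0 : 5 ^ 2 ∣ Nat.card Suz := by
    have := Nat.ordProj_dvd (Nat.card Suz) 5
    rwa [card_fact] at this
  refine EvenSyl.even_card hv h0 (fun h => ?_) (k := 3) (by norm_num) h8 fun P t ht hP => ?_
  · have := (Nat.Prime.pow_dvd_iff_le_factorization (by norm_num) Nat.card_pos.ne').1 h
    rw [card_fact] at this
    omega
  · have h3 : 5 ^ 2 ∣ Nat.card (P : Subgroup Suz) := P.pow_dvd_card_of_pow_dvd_card h0
    have h4 : (P : Subgroup Suz) ≤ centralizer ({t} : Set Suz) := fun x hx =>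
      mem_centralizer_singleton_iff.2 (hP x hx).symm
    exact H503.TwoSuz.not_dvd_two (p := 5 ^ 2) (by norm_num) (by norm_num) ht (h3.trans (card_dvd_of_le h4))

theorem even_e0 {v : Suz} (hv : orderOf v = 5) (hz : v * e0 = e0 * v) :
    Even (Nat.card (Sylow 5 (centralizer ({v} : Set Suz)))) := by
  have hfin := CTwoTab.Suz.finSuz
  have h1 : v ∈ CE := mem_CE.2 hz
  have hvL : v ∈ VL := by
    refine H895.Pron.SuzX5.sq_mem hv ?_
    have h2 := Subgroup.mul_self_mem_of_index_two idx.1 (⟨v, h1⟩ : CE)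
    exact Subgroup.mem_subgroupOf.1 h2
  have hV : ∀ w ∈ V, w * v = v * w := fun w hw => (VL_cent hvL hw).symm
  have he0 : e0 ∈ V := mem_V.2 (Or.inr (Or.inl rfl))
  have he1 : e1 ∈ V := mem_V.2 (Or.inr (Or.inr (Or.inl rfl)))
  refine H710.PSq.even_cent_four (by norm_num) card_fact hv (u := e0) (v := e1) (by rw [pow_two, e0_sq])
    (by rw [pow_two, e1_sq]) (V_abel _ he0 _ he1) (hV _ he0) (hV _ he1) (not_cent (by rw [pow_two, e0_sq]) e0_ne)
    (not_cent (by rw [pow_two, e1_sq]) e1_ne1) (not_cent ?_ ?_)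
  · have h := V_abel _ he0 _ he1
    calc (e0 * e1) ^ 2 = e0 * (e1 * e0) * e1 := by rw [pow_two, mul_assoc, mul_assoc, mul_assoc]
      _ = (e0 * e0) * (e1 * e1) := by rw [← h]; group
      _ = 1 := by rw [e0_sq, e1_sq, one_mul]
  · intro h
    apply e1_ne
    have h2 : e1 = e0⁻¹ := (eq_inv_of_mul_eq_one_right h)
    rw [h2, inv_eq_of_mul_eq_one_left e0_sq]

theorem even_card {v : Suz} (hv : orderOf v = 5) :
    Even (Nat.card (Sylow 5 (centralizer ({v} : Set Suz)))) := by
  have hfin := CTwoTab.Suz.finSuz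
  have h2 : Fact (Nat.Prime 2) := ⟨Nat.prime_two⟩
  obtain ⟨t, ht⟩ := exists_prime_orderOf_dvd_card' 2 (H874.Tor.SuzFive.even_five hv)
  have hto : orderOf (t : Suz) = 2 := by rw [Subgroup.orderOf_coe]; exact ht
  have htt : (t : Suz) * t = 1 := by rw [← pow_two, ← hto, pow_orderOf_eq_one]
  have ht1 : (t : Suz) ≠ 1 := by
    intro h
    rw [h, orderOf_one] at hto
    omega
  have htv : (t : Suz) * v = v * t := mem_centralizer_singleton_iff.1 t.2
  rcases CTwoTab.Suz.classes htt ht1 with h | h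
  · obtain ⟨c, hc⟩ := isConj_iff.1 h.symm
    refine H710.PSq.even_cent_of_isConj (x := c * v * c⁻¹) (isConj_iff.2 ⟨c⁻¹, by group⟩) (even_z0 ?_ ?_)
    · rw [ord_conj, hv]
    · rw [← hc]
      calc c * v * c⁻¹ * (c * t * c⁻¹) = c * (v * t) * c⁻¹ := by group
        _ = c * (t * v) * c⁻¹ := by rw [htv]
        _ = _ := by group
  · obtain ⟨c, hc⟩ := isConj_iff.1 h.symm
    refine H710.PSq.even_cent_of_isConj (x := c * v * c⁻¹) (isConj_iff.2 ⟨c⁻¹, by group⟩) (even_e0 ?_ ?_)
    · rw [ord_conj, hv]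
    · rw [← hc]
      calc c * v * c⁻¹ * (c * t * c⁻¹) = c * (v * t) * c⁻¹ := by group
        _ = c * (t * v) * c⁻¹ := by rw [htv]
        _ = _ := by group

end Cfsg.Agent.H642.SuzFive
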